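import Cfsg.Agent.Lib.CamOdd.Odd
import Cfsg.Agent.Lib.ChDeg.Thompson
import Cfsg.Agent.Lib.Frob.Thompson
import Cfsg.Agent.Lib.FT.OddOrder

/-!
Solvability of a group whose derived subgroup is a normal subgroup together with one class.
-/

set_option autoImplicit false

namespace CfsgLib.CamOdd

open Subgroup Cfsg CfsgLib.Char CfsgLib.ChDeg CfsgLib.Transfer
open scoped commutatorElement ComplexConjugate

section grp

variable {X : Type*} [Group X] [Finite X] {A : Subgroup X} {a : X}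

theorem comm_of_one_class [hA : A.Normal] (ha : a ∈ A) (ha1 : a ≠ 1)
    (hc : ∀ y ∈ A, y ≠ 1 → IsConj a y) {p : ℕ} [Fact p.Prime] (hp : a ^ p = 1) :
    ∀ x ∈ A, ∀ y ∈ A, x * y = y * x := by
  have h1 : IsPGroup p A := fun y => ⟨1, Subtype.ext (by
    by_cases hy : (y : X) = 1
    · simp [hy]
    · obtain ⟨c, e⟩ := isConj_iff.1 (hc y y.2 hy)
      rw [pow_one, coe_pow, ← e, conj_pow, hp]; simp)⟩
  have : Nontrivial A := ⟨⟨⟨a, ha⟩, 1, fun e => ha1 (congrArg Subtype.val e)⟩⟩
  have := h1.center_nontrivial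
  obtain ⟨⟨⟨z, hzA⟩, hz⟩, hz1⟩ := exists_ne (1 : center A)
  have hz2 : z ≠ 1 := fun e => hz1 (Subtype.ext (Subtype.ext e))
  intro x hx y hy
  by_cases hx1 : x = 1
  · simp [hx1]
  obtain ⟨c, rfl⟩ := isConj_iff.1 ((hc z hzA hz2).symm.trans (hc x hx hx1))
  have h2 : (c⁻¹ * y * c) * z = z * (c⁻¹ * y * c) :=
    congrArg Subtype.val (mem_center_iff.1 hz ⟨_, hA.conj_mem' y hy c⟩)
  calc c * z * c⁻¹ * y = c * (z * (c⁻¹ * y * c)) * c⁻¹ := by group
    _ = _ := by rw [← h2]; group

theorem two_or_le [hA : A.Normal] (ha : a ∈ A) (ha1 : a ≠ 1)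
    (hc : ∀ y ∈ A, y ≠ 1 → IsConj a y) (hab : ∀ x ∈ A, ∀ y ∈ A, x * y = y * x)
    (hcom : ∀ x y : X, ⁅x, y⁆ ∈ A)
    (hx : ∀ x ∉ A, Nat.card (centralizer ({x} : Set X)) = A.index) :
    IsPGroup 2 X ∨ centralizer ({a} : Set X) ≤ A := by
  have hidx : ∀ x ∉ A, (centralizer ({x} : Set X)).index = Nat.card A := fun x hxA => by
    have h1 := (centralizer ({x} : Set X)).card_mul_index
    rw [hx x hxA, ← A.index_mul_card] at h1
    exact Nat.eq_of_mul_eq_mul_left (Nat.pos_of_ne_zero index_ne_zero_of_finite) h1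
  have hcl : (centralizer ({a} : Set X)).index + 1 = Nat.card A := by
    rw [← card_isConj_eq_index]
    have e : {g : X | IsConj g a} = (A : Set X) \ {1} := by
      ext y
      constructor
      · intro hy
        obtain ⟨c, rfl⟩ := isConj_iff.1 (IsConj.symm hy)
        exact ⟨hA.conj_mem a ha c, by simpa using ha1⟩
      · exact fun hy => (hc y hy.1 hy.2).symm
    change Nat.card {g : X | IsConj g a} + 1 = Nat.card (A : Set X)
    rw [e, Nat.card_coe_set_eq, Nat.card_coe_set_eq]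
    exact Set.ncard_sdiff_singleton_add_one A.one_mem
  by_cases h2 : ∀ h : X, h * a = a * h
  · left
    have h3 : ∀ y ∈ A, y ≠ 1 → y = a := fun y hy hy1 => by
      obtain ⟨c, rfl⟩ := isConj_iff.1 (hc y hy hy1)
      exact conj_eq (h2 c)
    have h4 : a * a = 1 := by
      by_contra h4
      exact ha1 (mul_eq_left.1 (h3 _ (mul_mem ha ha) h4))
    have h5 : Nat.card A ≠ 1 := fun e => ha1 (by
      rw [card_eq_one] at e
      rwa [e, mem_bot] at ha)
    intro x
    obtain ⟨j, t, ht, e⟩ := Nat.exists_eq_two_pow_mul_odd (orderOf_pos x).ne'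
    refine ⟨j, ?_⟩
    set y := x ^ 2 ^ j with hy
    have h6 : y ^ t = 1 := by rw [hy, ← pow_mul, ← e, pow_orderOf_eq_one]
    have h7 : a ^ t = a := by
      obtain ⟨n, rfl⟩ := ht
      rw [pow_succ, pow_mul, sq, h4, one_pow, one_mul]
    by_contra hy1
    by_cases hyA : y ∈ A
    · rw [h3 y hyA hy1, h7] at h6
      exact ha1 h6
    · have h8 : centralizer ({y} : Set X) ≠ ⊤ := fun e => h5 (by rw [← hidx y hyA, e, index_top])
      obtain ⟨h, hh⟩ : ∃ h, h ∉ centralizer ({y} : Set X) := by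
        by_contra h9
        push Not at h9
        exact h8 (eq_top_iff.2 fun h _ => h9 h)
      have h9 : ⁅h, y⁆ = a := h3 _ (hcom h y) fun e =>
        hh (mem_centralizer_singleton_iff.2 (commutatorElement_eq_one_iff_mul_comm.1 e))
      have h10 : h * y * h⁻¹ = a * y := by rw [← h9, commutatorElement_def]; group
      have h11 := congrArg (· ^ t) h10
      simp only [conj_pow, h6] at h11
      rw [Commute.mul_pow (h2 y).symm, h6, h7] at h11
      exact ha1 (by simpa using h11.symm)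
  · right
    intro x hxa
    by_contra hxA
    have cen : ∀ y ∈ centralizer ({a} : Set X), ∀ b ∈ A, y * b = b * y := by
      intro y hy b hb
      by_cases hb1 : b = 1
      · simp [hb1]
      obtain ⟨c, rfl⟩ := isConj_iff.1 (hc b hb hb1)
      have e1 := mem_centralizer_singleton_iff.1 hy
      have e2 := hab _ (hcom y c) _ hb
      have : y * (c * a * c⁻¹) * y⁻¹ = ⁅y, c⁆ * (c * (y * a * y⁻¹) * c⁻¹) * ⁅y, c⁆⁻¹ := by
        simp only [commutatorElement_def]; group
      rw [conj_eq e1, conj_eq e2, mul_inv_eq_iff_eq_mul] at this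
      exact this
    have hle : centralizer ({a} : Set X) ≤ centralizer ({x} : Set X) := by
      intro y hy
      by_contra hne
      have c1 : ⁅x, y⁆ ≠ 1 := fun e =>
        hne (mem_centralizer_singleton_iff.2 (commutatorElement_eq_one_iff_mul_comm.1 e).symm)
      have c2 : ∀ h : X, h * ⁅x, y⁆ * h⁻¹ = ⁅x, y⁆ := by
        intro h
        have e1 : h * x * h⁻¹ = ⁅h, x⁆ * x := by rw [commutatorElement_def]; group
        have e2 : h * y * h⁻¹ = ⁅h, y⁆ * y := by rw [commutatorElement_def]; group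
        have m : ⁅h, y⁆ * y ∈ centralizer ({a} : Set X) :=
          mul_mem (mem_centralizer_singleton_iff.2 (hab _ (hcom h y) _ ha)) hy
        rw [cm_conj, e1, e2, cm_mul_left, conj_eq (hab _ (hcom _ _) _ (hcom _ _)),
          cm_eq_one (cen _ m _ (hcom h x)).symm, mul_one, cm_mul_right,
          cm_eq_one (cen _ hxa _ (hcom h y)), one_mul, conj_eq (hab _ (hcom _ _) _ (hcom _ _))]
      obtain ⟨c, e⟩ := isConj_iff.1 (hc _ (hcom x y) c1).symm
      rw [c2 c] at e
      exact h2 fun h => by rw [← e, ← mul_inv_eq_iff_eq_mul, c2]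
    have h3 := index_dvd_of_le hle
    rw [hidx x hxA] at h3
    have := Nat.le_of_dvd (Nat.pos_of_ne_zero index_ne_zero_of_finite) h3
    omega

theorem exists_prime_elt {G : Type*} [Group G] [Finite G] {M K : Subgroup G} [hK : K.Normal]
    {g : G} (hg : g ∈ M) (hgK : g ∉ K) (hc : ∀ y ∈ M, y ∉ K → IsConj g y) :
    ∃ p j : ℕ, p.Prime ∧ g ^ p ∈ K ∧ g ^ p ^ j = 1 := by
  have h1 : orderOf (g : G ⧸ K) ≠ 1 := fun e =>
    hgK ((QuotientGroup.eq_one_iff g).1 (orderOf_eq_one_iff.1 e))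
  obtain ⟨p, hp, n, hn⟩ := Nat.exists_prime_and_dvd h1
  have h0 := orderOf_pos (g : G ⧸ K)
  have mem : ∀ k : ℕ, g ^ k ∈ K ↔ orderOf (g : G ⧸ K) ∣ k := fun k => by
    rw [orderOf_dvd_iff_pow_eq_one, ← QuotientGroup.mk_pow, QuotientGroup.eq_one_iff]
  have h2 : g ^ p ∈ K := by
    have : g ^ n ∉ K := fun e => by
      have h3 := Nat.le_of_dvd (Nat.pos_of_ne_zero (by rintro rfl; omega)) ((mem n).1 e)
      have := hp.two_le
      have : 0 < n := Nat.pos_of_ne_zero (by rintro rfl; omega)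
      nlinarith
    obtain ⟨c, e⟩ := isConj_iff.1 (hc _ (pow_mem hg n) this).symm
    rw [← e, conj_pow, ← pow_mul]
    exact hK.conj_mem _ ((mem _).2 (by rw [hn, mul_comm])) c
  obtain ⟨j, t, ht, e⟩ := Nat.exists_eq_pow_mul_and_not_dvd (orderOf_pos g).ne' p hp.ne_one
  have h3 : g ^ t ∉ K := fun e => ht ((Dvd.intro _ hn.symm).trans ((mem t).1 e))
  obtain ⟨c, e2⟩ := isConj_iff.1 (hc _ (pow_mem hg t) h3).symm
  refine ⟨p, j, hp, h2, ?_⟩
  rw [← e2, conj_pow, ← pow_mul, mul_comm t, ← e, pow_orderOf_eq_one]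
  simp

end grp

variable {G : Type*} [Group G] [Finite G]

theorem vanish (K : Subgroup G) [K.Normal] (hK : commutator G ≤ K) {x : G}
    (hx : Nat.card (centralizer ({x} : Set G)) ≤ K.index) {θ : G → ℂ} (hθ : IsIrrCharacter G θ)
    (hθK : ¬ K ≤ cker θ) : θ x = 0 := by
  classical
  have h1 := sum_normSq_irr x
  have h2 := sum_filter_cker K (fun χ : G → ℂ => ‖χ x‖ ^ 2)
  have h3 : centralizer ({(x : G ⧸ K)} : Set (G ⧸ K)) = ⊤ := by
    rw [eq_top_iff]
    rintro ⟨y⟩ -
    refine mem_centralizer_singleton_iff.2 (QuotientGroup.eq.2 (hK ?_))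
    have : (y * x)⁻¹ * (x * y) = ⁅x⁻¹, y⁻¹⁆ := by rw [commutatorElement_def]; group
    rw [this]
    exact commutator_mem_commutator (mem_top _) (mem_top _)
  rw [sum_normSq_irr, h3, card_top, ← index_eq_card] at h2
  rw [← Finset.sum_filter_add_sum_filter_not _
    (fun χ : IrrCharacter G => K ≤ cker (χ : G → ℂ)), h2] at h1
  have h4 : (Nat.card (centralizer ({x} : Set G)) : ℝ) ≤ K.index := by exact_mod_cast hx
  have h5 := Finset.single_le_sum (f := fun χ : IrrCharacter G => ‖(χ : G → ℂ) x‖ ^ 2)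
    (s := Finset.univ.filter fun χ : IrrCharacter G => ¬ K ≤ cker (χ : G → ℂ))
    (fun _ _ => sq_nonneg _) (a := ⟨θ, hθ⟩) (by simpa using hθK)
  have h6 : ‖θ x‖ ^ 2 ≤ 0 := by linarith
  exact norm_eq_zero.1 (pow_eq_zero_iff two_ne_zero |>.1 (le_antisymm h6 (sq_nonneg _)))

theorem solv_of_two (h : ∀ χ, IsIrrCharacter G χ → charDegree χ ≠ 1 → 2 ∣ charDegree χ) :
    Group.IsSolvable G := by
  have := pResidual_normal 2 G
  have h1 := not_dvd_card_pResidual Nat.prime_two h
  rw [Group.isSolvable_iff_subgroup_quotient (pResidual 2 G)]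
  have := (isPGroup_quotient_pResidual (p := 2) (G := G)).isNilpotent
  exact ⟨FT.odd_order_solvable (Nat.not_even_iff_odd.1 fun e => h1 e.two_dvd), inferInstance⟩

theorem solv_of_commutator (h : Group.IsSolvable (commutator G)) : Group.IsSolvable G := by
  rw [Group.isSolvable_iff_subgroup_quotient (commutator G)]
  exact ⟨h, inferInstanceAs (Group.IsSolvable (Abelianization G))⟩

theorem solv_of_cam {K : Subgroup G} [hK : K.Normal] {g : G} (hKM : K ≤ commutator G)
    (hg : g ∈ commutator G) (hgK : g ∉ K) (hc : ∀ y ∈ commutator G, y ∉ K → IsConj g y)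
    (hab : ∀ x ∈ commutator G, ∀ y ∈ commutator G, ⁅x, y⁆ ∈ K)
    (hcg : Nat.card (centralizer ({g} : Set G)) ≤ K.relIndex (commutator G)) :
    Group.IsSolvable G := by
  obtain ⟨p, j, hp, hgp, hgj⟩ := exists_prime_elt hg hgK hc
  have := Fact.mk hp
  set M := commutator G with hM
  have hMn : M.Normal := inferInstance
  have hK' : commutator M ≤ K.subgroupOf M := by
    rw [commutator_def, Subgroup.commutator_le]
    exact fun x _ y _ => hab x x.2 y y.2
  have van : ∀ x : M, (x : G) ∉ K → ∀ θ, IsIrrCharacter M θ → ¬ K.subgroupOf M ≤ cker θ →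
      θ x = 0 := by
    intro x hx θ hθ h
    refine vanish (K.subgroupOf M) hK' (le_trans ?_ hcg) hθ h
    obtain ⟨c, e⟩ := isConj_iff.1 (hc x x.2 hx)
    refine Nat.card_le_card_of_injective (fun y => ⟨c⁻¹ * (y : M) * c, ?_⟩) ?_
    · have : ((y : M) : G) * x = x * (y : M) :=
        congrArg Subtype.val (mem_centralizer_singleton_iff.1 y.2)
      rw [mem_centralizer_singleton_iff]
      rw [← e] at this
      calc c⁻¹ * (y : M) * c * g = c⁻¹ * ((y : M) * (c * g * c⁻¹)) * c := by group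
        _ = _ := by rw [this]; group
    · intro y z e
      have := congrArg Subtype.val e
      exact Subtype.ext (Subtype.ext (by simpa using this))
  have deg : ∀ θ, IsIrrCharacter M θ → charDegree θ ≠ 1 → p ∣ charDegree θ := fun θ hθ h1 =>
    dvd_deg_of_eq_zero hp (isCharacter_of_isIrr hθ) (g := ⟨g, hg⟩) (j := j) (Subtype.ext hgj)
      (van _ hgK θ hθ fun h => h1 ((deg_eq_one_iff_commutator_le hθ).2 (hK'.trans h)))
  by_cases hp2 : p = 2
  · subst hp2
    exact solv_of_commutator (solv_of_two deg)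
  have cam : Cam M K := by
    refine ⟨hMn, hK, hKM, hab, fun x hx hxK k hk => ?_, fun x hx hxK => ?_⟩
    · have h1 : IsConj (⟨x, hx⟩ : M) (⟨k⁻¹, hKM (inv_mem hk)⟩ * ⟨x, hx⟩) := by
        refine isConj_of_irr_eq fun θ hθ => ?_
        by_cases h : K.subgroupOf M ≤ cker θ
        · exact (char_mul_of_mem_cker (isCharacter_of_isIrr hθ) 
            (h (mem_subgroupOf.2 (inv_mem hk))) _).symm
        · rw [van _ hxK θ hθ h, van _ _ θ hθ h]
          exact fun e => hxK ((mul_mem_cancel_left (inv_mem hk)).1 e)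
      obtain ⟨y, e⟩ := isConj_iff.1 h1
      have e' : (y : G) * x * (y : G)⁻¹ = k⁻¹ * x := congrArg Subtype.val e
      refine ⟨y, y.2, ?_⟩
      calc ⁅x, (y : G)⁆ = x * ((y : G) * x * (y : G)⁻¹)⁻¹ := by
            rw [commutatorElement_def]; group
        _ = k := by rw [e']; group
    · obtain ⟨s, hs⟩ := isConj_iff.1 ((hc x hx hxK).symm.trans
        (hc x⁻¹ (inv_mem hx) fun e => hxK (inv_mem_iff.1 e)))
      refine ⟨s, hs, fun y hy => ?_⟩
      by_cases hyK : y ∈ K
      · exact mul_mem (hK.conj_mem y hyK s) hyK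
      obtain ⟨h, rfl⟩ := isConj_iff.1 ((hc x hx hxK).symm.trans (hc y hy hyK))
      have : s * (h * x * h⁻¹) * s⁻¹ * (h * x * h⁻¹) =
          ⁅s, h⁆ * (h * (s * x * s⁻¹) * h⁻¹) * ⁅s, h⁆⁻¹ * (h * x * h⁻¹) := by
        simp only [commutatorElement_def]; group
      rw [this, hs]
      have h2 := hab _ (commutator_mem_commutator (mem_top s) (mem_top h)) _ (inv_mem hy)
      convert h2 using 1
      rw [commutatorElement_def ⁅s, h⁆]; group
  have := pResidual_characteristic p M
  set N := (pResidual p M).map M.subtype with hN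
  have hNn : N.Normal := inferInstance
  have hNc : ¬ p ∣ Nat.card N := by
    rw [hN, card_map_of_injective M.subtype_injective]
    exact not_dvd_card_pResidual hp deg
  have triv : ∀ n ∈ N, ∀ i, n ^ p ^ i = 1 → n = 1 := fun n hn i e => by
    have h1 := Nat.dvd_gcd (orderOf_dvd_of_pow_eq_one e) (N.orderOf_dvd_natCard hn)
    rw [(((Nat.Prime.coprime_iff_not_dvd hp).2 hNc).pow_left i : Nat.gcd _ _ = 1),
      Nat.dvd_one, orderOf_eq_one_iff] at h1
    exact h1
  have hNK : N ≤ K := fun n hn => by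
    by_contra hnK
    obtain ⟨c, e⟩ := isConj_iff.1 (hc n (map_subtype_le _ hn) hnK)
    exact hnK (triv n hn j (by rw [← e, conj_pow, hgj]; simp) ▸ K.one_mem)
  have hP : IsPGroup p (M.map (QuotientGroup.mk' N)) := by
    rintro ⟨_, x, hx, rfl⟩
    obtain ⟨k, hk⟩ := exists_pow_mem_pResidual (p := p) (⟨x, hx⟩ : M)
    refine ⟨k, Subtype.ext ?_⟩
    change (QuotientGroup.mk' N x) ^ p ^ k = 1
    rw [← map_pow]
    exact (QuotientGroup.eq_one_iff _).2 ⟨_, hk, rfl⟩
  have h1 := (cam.map _ (QuotientGroup.mk'_surjective N)).pow_eq_one hp2 hP ⟨g, hg, rfl⟩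
    (by
      rintro ⟨k, hk, e⟩
      exact hgK ((mul_mem_cancel_left (inv_mem hk)).1 (hNK (QuotientGroup.eq.1 e))))
    ⟨_, hgp, map_pow _ _ _⟩
  rw [← map_pow] at h1
  have h2 : g ^ p = 1 := triv _ ((QuotientGroup.eq_one_iff _).1 h1) j (by
    rw [← pow_mul, mul_comm, pow_mul, hgj, one_pow])
  have h3 : Group.IsNilpotent N := by
    refine Frob.isNilpotent_of_fpf_prime (φ := MulAut.conjNormal g) (fun n hn => ?_) hp
      (by rw [← map_pow, h2, map_one])
    have e : g * n * g⁻¹ = n := congrArg Subtype.val hn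
    have e2 : Commute g n := mul_inv_eq_iff_eq_mul.1 e
    obtain ⟨c, e3⟩ := isConj_iff.1 (hc (g * n) (mul_mem hg (map_subtype_le _ n.2))
      fun h => hgK ((mul_mem_cancel_right (hNK n.2)).1 h))
    have e4 := congrArg (· ^ p) e3
    simp only [conj_pow, e2.mul_pow, h2] at e4
    exact Subtype.ext (triv n n.2 1 (by simpa using e4.symm))
  refine solv_of_commutator ?_
  have := pResidual_normal p M
  rw [Group.isSolvable_iff_subgroup_quotient (pResidual p M)]
  have := (isPGroup_quotient_pResidual (p := p) (G := M)).isNilpotent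
  have := Group.nilpotent_of_mulEquiv
    ((pResidual p M).equivMapOfInjective _ M.subtype_injective).symm
  exact ⟨inferInstance, inferInstance⟩

end CfsgLib.CamOdd
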