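import Cfsg.Agent.Lib.Char.Kernel
import Cfsg.Agent.Lib.Core.Fitting

/-!
Camina `p`-groups (`p` odd) whose elements outside the derived group are inverted by an
automorphism acting as `-1` on the abelianization have class two and exponent `p` outside.
-/

set_option autoImplicit false

namespace CfsgLib.CamOdd

open Subgroup Cfsg CfsgLib.Char
open scoped commutatorElement

variable {Y : Type*} [Group Y]

structure Cam (P K : Subgroup Y) : Prop where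
  nP : P.Normal
  nK : K.Normal
  le : K ≤ P
  ab : ∀ x ∈ P, ∀ y ∈ P, ⁅x, y⁆ ∈ K
  cam : ∀ x ∈ P, x ∉ K → ∀ k ∈ K, ∃ y ∈ P, ⁅x, y⁆ = k
  inv : ∀ x ∈ P, x ∉ K → ∃ s : Y, s * x * s⁻¹ = x⁻¹ ∧ ∀ y ∈ P, s * y * s⁻¹ * y ∈ K

variable {P K : Subgroup Y}

theorem Cam.map {Y' : Type*} [Group Y'] (h : Cam P K) (f : Y →* Y') (hf : Function.Surjective f) :
    Cam (P.map f) (K.map f) where
  nP := h.nP.map f hf
  nK := h.nK.map f hf
  le := map_mono h.le
  ab := by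
    rintro _ ⟨x, hx, rfl⟩ _ ⟨y, hy, rfl⟩
    exact ⟨_, h.ab x hx y hy, map_commutatorElement f x y⟩
  cam := by
    rintro _ ⟨x, hx, rfl⟩ hxK _ ⟨k, hk, rfl⟩
    obtain ⟨y, hy, e⟩ := h.cam x hx (fun e => hxK ⟨x, e, rfl⟩) k hk
    exact ⟨f y, ⟨y, hy, rfl⟩, by rw [← e, map_commutatorElement]⟩
  inv := by
    rintro _ ⟨x, hx, rfl⟩ hxK
    obtain ⟨s, hs, hs'⟩ := h.inv x hx (fun e => hxK ⟨x, e, rfl⟩)
    refine ⟨f s, by rw [← map_inv, ← map_mul, ← map_mul, hs, map_inv], ?_⟩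
    rintro _ ⟨y, hy, rfl⟩
    exact ⟨_, hs' y hy, by simp⟩

theorem cm_mul_right (x a b : Y) : ⁅x, a * b⁆ = ⁅x, a⁆ * (a * ⁅x, b⁆ * a⁻¹) := by
  simp only [commutatorElement_def]; group

theorem cm_mul_left (a b k : Y) : ⁅a * b, k⁆ = a * ⁅b, k⁆ * a⁻¹ * ⁅a, k⁆ := by
  simp only [commutatorElement_def]; group

theorem cm_inv_left (a k : Y) : ⁅a⁻¹, k⁆ = a⁻¹ * ⁅a, k⁆⁻¹ * a := by
  simp only [commutatorElement_def]; group

theorem cm_inv_inv (x y : Y) : ⁅x⁻¹, y⁻¹⁆ = ⁅(y * x)⁻¹, ⁅x, y⁆⁆ * ⁅x, y⁆ := by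
  simp only [commutatorElement_def]; group

theorem cm_conj (s x y : Y) : s * ⁅x, y⁆ * s⁻¹ = ⁅s * x * s⁻¹, s * y * s⁻¹⁆ := by
  simp only [commutatorElement_def]; group

theorem conj_eq {a z : Y} (h : a * z = z * a) : a * z * a⁻¹ = z := by rw [h]; group

theorem cm_eq_one {a z : Y} (h : a * z = z * a) : ⁅a, z⁆ = 1 :=
  commutatorElement_eq_one_iff_mul_comm.2 h

/-- the key formula for the action of the inverting element on a commutator -/
theorem Cam.act (h : Cam P K) (hK : ∀ a ∈ K, ∀ b ∈ K, a * b = b * a) {x y s : Y} (hx : x ∈ P)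
    (hy : y ∈ P) (hs : s * x * s⁻¹ = x⁻¹) (hs' : ∀ y ∈ P, s * y * s⁻¹ * y ∈ K) :
    s * ⁅x, y⁆ * s⁻¹ = ⁅x⁻¹, s * y * s⁻¹ * y⁆ * ⁅(y * x)⁻¹, ⁅x, y⁆⁆ * ⁅x, y⁆ := by
  have e : s * y * s⁻¹ = (s * y * s⁻¹ * y) * y⁻¹ := by group
  rw [cm_conj, hs, e, cm_mul_right,
    conj_eq (hK _ (hs' y hy) _ (h.ab _ (inv_mem hx) _ (inv_mem hy))), cm_inv_inv, ← e,
    mul_assoc ⁅x⁻¹, _⁆]

theorem Cam.step [Finite Y] (h : Cam P K) (hodd : Odd (Nat.card P)) {x₀ : Y} (hx₀ : x₀ ∈ P)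
    (hx₀K : x₀ ∉ K) (hc : ⁅⁅P, K⁆, P⁆ = ⊥) : ⁅P, K⁆ = ⊥ := by
  classical
  have := h.nP
  have := h.nK
  set Z := ⁅P, K⁆ with hZ
  have hZK : Z ≤ K := commutator_le_right P K
  have z1 : ∀ x ∈ P, ∀ z ∈ Z, x * z = z * x := fun x hx z hz => by
    have : ⁅z, x⁆ ∈ ⁅Z, P⁆ := commutator_mem_commutator hz hx
    rw [hc, mem_bot, commutatorElement_eq_one_iff_mul_comm] at this
    exact this.symm
  have z2 : ∀ x ∈ P, ∀ k ∈ K, ⁅x, k⁆ ∈ Z := fun x hx k hk => commutator_mem_commutator hx hk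
  have hK : ∀ a ∈ K, ∀ b ∈ K, a * b = b * a := by
    have h3 : ⁅⁅P, P⁆, K⁆ = ⊥ :=
      commutator_commutator_eq_bot_of_rotate hc (by rw [commutator_comm K P]; exact hc)
    intro a ha b hb
    obtain ⟨y, hy, rfl⟩ := h.cam x₀ hx₀ hx₀K a ha
    have : ⁅⁅x₀, y⁆, b⁆ ∈ ⁅⁅P, P⁆, K⁆ :=
      commutator_mem_commutator (commutator_mem_commutator hx₀ hy) hb
    rwa [h3, mem_bot, commutatorElement_eq_one_iff_mul_comm] at this
  have inv1 : ∀ x ∈ P, ∀ k ∈ K, ⁅x⁻¹, k⁆ = ⁅x, k⁆⁻¹ := fun x hx k hk => by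
    rw [cm_inv_left, mul_assoc, ← z1 x hx _ (inv_mem (z2 x hx k hk))]; group
  -- every element of `Z` has its square in `[x, K]`
  have sq : ∀ x ∈ P, x ∉ K → ∀ z ∈ Z, ∃ c ∈ K, ⁅x, c⁆ = z * z := by
    intro x hx hxK
    obtain ⟨s, hs, hs'⟩ := h.inv x hx hxK
    have s1 : ∀ k ∈ K, ∃ z ∈ Z, s * k * s⁻¹ = z * k := by
      intro k hk
      obtain ⟨y, hy, rfl⟩ := h.cam x hx hxK k hk
      exact ⟨_, mul_mem (z2 _ (inv_mem hx) _ (hs' y hy))
        (z2 _ (inv_mem (mul_mem hy hx)) _ hk), h.act hK hx hy hs hs'⟩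
    have s3 : ∀ z ∈ Z, s * z * s⁻¹ = z⁻¹ := by
      intro z hz
      rw [hZ, Subgroup.commutator_def] at hz
      induction hz using closure_induction with
      | mem w hw =>
        obtain ⟨y, hy, k, hk, rfl⟩ := hw
        obtain ⟨z', hz', e⟩ := s1 k hk
        have e2 : s * y * s⁻¹ = (s * y * s⁻¹ * y) * y⁻¹ := by group
        have hk' : z' * k ∈ K := mul_mem (hZK hz') hk
        rw [cm_conj, e, e2, cm_mul_left, cm_eq_one (hK _ (hs' y hy) _ hk'), mul_one,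
          conj_eq (hK _ (hs' y hy) _ (hZK (z2 _ (inv_mem hy) _ hk'))), cm_mul_right,
          cm_eq_one (z1 _ (inv_mem hy) _ hz'), one_mul,
          conj_eq (hK _ (hZK hz') _ (hZK (z2 _ (inv_mem hy) _ hk))), inv1 y hy k hk]
      | one => simp
      | mul a b ha hb iha ihb =>
        have : s * (a * b) * s⁻¹ = (s * a * s⁻¹) * (s * b * s⁻¹) := by group
        rw [this, iha, ihb, mul_inv_rev]
        exact hK _ (inv_mem (hZK ha)) _ (inv_mem (hZK hb))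
      | inv a ha iha =>
        have : s * a⁻¹ * s⁻¹ = (s * a * s⁻¹)⁻¹ := by group
        rw [this, iha]
    intro z hz
    obtain ⟨y, hy, e⟩ := h.cam x hx hxK z (hZK hz)
    have h1 := h.act hK hx hy hs hs'
    rw [e, s3 z hz, cm_eq_one (z1 _ (inv_mem (mul_mem hy hx)) z hz), mul_one,
      inv1 x hx _ (hs' y hy)] at h1
    refine ⟨_, hs' y hy, ?_⟩
    have : ⁅x, s * y * s⁻¹ * y⁆⁻¹ = z⁻¹ * z⁻¹ := by rw [eq_mul_inv_iff_mul_eq, h1]
    rw [← inv_inj, this, mul_inv_rev]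
  by_contra hne
  obtain ⟨⟨z₀, hz₀⟩, hz₁⟩ := (nontrivial_iff_exists_ne (1 : Z)).1 ((nontrivial_iff_ne_bot Z).2 hne)
  have hZc : IsMulCommutative Z := ⟨⟨fun a b => Subtype.ext (hK _ (hZK a.2) _ (hZK b.2))⟩⟩
  obtain ⟨f, hf⟩ : ∃ f : Z →* ℂ, f ⟨z₀, hz₀⟩ ≠ 1 := by
    by_contra h1
    push Not at h1
    refine hz₁ (eq_one_of_forall_irr_eq fun χ hχ => ?_)
    obtain ⟨f, rfl⟩ := exists_monoidHom_of_one_eq_one (isCharacter_of_isIrr hχ)
      (irr_one_eq_one_of_comm hχ)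
    rw [h1 f, map_one]
  have hf2 : f ⟨z₀, hz₀⟩ * f ⟨z₀, hz₀⟩ ≠ 1 := by
    intro e
    obtain ⟨n, hn⟩ := hodd
    have h1 : (⟨z₀, h.le (hZK hz₀)⟩ : P) ^ Nat.card P = 1 := pow_card_eq_one'
    have h2 : (⟨z₀, hz₀⟩ : Z) ^ (2 * n + 1) = 1 := by
      rw [← hn]; exact Subtype.ext (show z₀ ^ _ = 1 from congrArg Subtype.val h1)
    have h3 := congrArg f h2
    rw [map_pow, pow_succ, pow_mul, _root_.sq, e, one_pow, one_mul,
      map_one] at h3
    exact hf h3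
  have := Fintype.ofFinite P
  have := Fintype.ofFinite K
  let b : P → (K →* ℂ) := fun x =>
    { toFun := fun k => f ⟨⁅(x : Y), (k : Y)⁆, z2 _ x.2 _ k.2⟩
      map_one' := (congrArg f (Subtype.ext (by simp))).trans (map_one f)
      map_mul' := fun a c => by
        rw [← map_mul]
        congr 1
        apply Subtype.ext
        simp only [coe_mul]
        rw [cm_mul_right, conj_eq (z1 _ (h.le a.2) _ (z2 _ x.2 _ c.2))] }
  let b' : K → (P →* ℂ) := fun k =>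
    { toFun := fun x => f ⟨⁅(x : Y), (k : Y)⁆, z2 _ x.2 _ k.2⟩
      map_one' := (congrArg f (Subtype.ext (by simp))).trans (map_one f)
      map_mul' := fun a c => by
        rw [mul_comm, ← map_mul]
        congr 1
        apply Subtype.ext
        simp only [coe_mul]
        rw [cm_mul_left, conj_eq (z1 _ a.2 _ (z2 _ c.2 _ k.2))] }
  have hb : ∀ x : P, b x = 1 ↔ (x : Y) ∈ K := by
    intro x
    constructor
    · intro e
      by_contra hx
      obtain ⟨c, hc, e2⟩ := sq x x.2 hx z₀ hz₀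
      have h1 := DFunLike.congr_fun e ⟨c, hc⟩
      apply hf2
      rw [← map_mul]
      refine Eq.trans ?_ h1
      exact congrArg f (Subtype.ext e2.symm)
    · intro hx
      ext k
      exact (congrArg f (Subtype.ext (cm_eq_one (hK _ hx _ k.2)))).trans (map_one f)
  have hb' : ∀ k : K, (k : Y) ∈ Z → b' k = 1 := by
    intro k hk
    ext x
    exact (congrArg f (Subtype.ext (cm_eq_one (z1 _ x.2 _ hk)))).trans (map_one f)
  have hsum : ∑ x : P, ∑ k : K, b x k = ∑ k : K, ∑ x : P, b' k x := Finset.sum_comm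
  simp only [sum_hom_units, hb, Nat.cast_ite, Nat.cast_zero, ← Finset.sum_filter, Finset.sum_const,
    nsmul_eq_mul] at hsum
  have hsum' : (Finset.univ.filter fun x : P => (x : Y) ∈ K).card * Fintype.card K =
      (Finset.univ.filter fun k : K => b' k = 1).card * Fintype.card P := by exact_mod_cast hsum
  have c1 : (Finset.univ.filter fun x : P => (x : Y) ∈ K).card = Nat.card K := by
    rw [← Fintype.card_subtype, ← Nat.card_eq_fintype_card]
    exact Nat.card_congr (subgroupOfEquivOfLe h.le).toEquiv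
  have c2 : Nat.card Z ≤ (Finset.univ.filter fun k : K => b' k = 1).card := by
    rw [← Nat.card_congr (subgroupOfEquivOfLe hZK).toEquiv]
    have : Nat.card (Z.subgroupOf K) = (Finset.univ.filter fun k : K => (k : Y) ∈ Z).card := by
      rw [← Fintype.card_subtype, ← Nat.card_eq_fintype_card]; rfl
    rw [this]
    exact Finset.card_le_card fun k hk => by
      simp only [Finset.mem_filter, Finset.mem_univ, true_and] at hk ⊢
      exact hb' k hk
  rw [c1, ← Nat.card_eq_fintype_card, ← Nat.card_eq_fintype_card] at hsum'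
  -- the opposite inequality
  let δ : P →* Y ⧸ Z :=
    { toFun := fun y => QuotientGroup.mk ⁅x₀, (y : Y)⁆
      map_one' := by simp
      map_mul' := fun a c => by
        rw [← QuotientGroup.mk_mul, coe_mul, cm_mul_right, eq_comm, QuotientGroup.eq]
        have : (⁅x₀, (a : Y)⁆ * ⁅x₀, (c : Y)⁆)⁻¹ * (⁅x₀, (a : Y)⁆ * (a * ⁅x₀, (c : Y)⁆ * (a : Y)⁻¹))
            = ⁅x₀, (c : Y)⁆⁻¹ * ⁅(a : Y), ⁅x₀, (c : Y)⁆⁆ * ⁅x₀, (c : Y)⁆⁻¹⁻¹ := by
          rw [commutatorElement_def (a : Y)]; group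
        rw [this]
        exact Normal.conj_mem inferInstance _ (z2 _ a.2 _ (h.ab _ hx₀ _ c.2)) _ }
  have d1 : δ.range = K.map (QuotientGroup.mk' Z) := by
    ext w
    constructor
    · rintro ⟨y, rfl⟩
      exact ⟨_, h.ab _ hx₀ _ y.2, rfl⟩
    · rintro ⟨k, hk, rfl⟩
      obtain ⟨y, hy, e⟩ := h.cam x₀ hx₀ hx₀K k hk
      exact ⟨⟨y, hy⟩, congrArg QuotientGroup.mk e⟩
  have d2 : K.subgroupOf P < δ.ker := by
    refine lt_of_le_of_ne (fun y hy => (QuotientGroup.eq_one_iff _).2 (z2 _ hx₀ _ hy)) fun e => ?_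
    have : (⟨x₀, hx₀⟩ : P) ∈ δ.ker := by
      change QuotientGroup.mk ⁅x₀, x₀⁆ = (1 : Y ⧸ Z)
      simp
    rw [← e] at this
    exact hx₀K this
  have d3 : Nat.card K < Nat.card δ.ker := by
    rw [← Nat.card_congr (subgroupOfEquivOfLe h.le).toEquiv]
    exact Set.Finite.card_lt_card (Set.toFinite _) d2
  have d4 : Nat.card δ.ker * Nat.card δ.range = Nat.card P := by
    rw [← index_ker, card_mul_index]
  have d5 : Nat.card Z * Nat.card δ.range = Nat.card K := by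
    rw [d1, ← relIndex_ker, QuotientGroup.ker_mk', relIndex,
      ← Nat.card_congr (subgroupOfEquivOfLe hZK).toEquiv, card_mul_index]
  have p1 : 0 < Nat.card Z := Nat.card_pos
  have p2 : 0 < Nat.card δ.range := Nat.card_pos
  have : Nat.card Z * Nat.card P ≤ Nat.card K * Nat.card K := by
    rw [hsum']; exact Nat.mul_le_mul_right _ c2
  rw [← d4, ← d5] at this
  rw [← d5] at d3
  nlinarith [Nat.mul_pos p1 p2]

theorem Cam.comm [Finite Y] (h : Cam P K) {p : ℕ} [hp : Fact p.Prime] (hp2 : p ≠ 2)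
    (hP : IsPGroup p P) {x₀ : Y} (hx₀ : x₀ ∈ P) (hx₀K : x₀ ∉ K) : ⁅P, K⁆ = ⊥ := by
  have := h.nP
  have := h.nK
  set W := ⁅⁅P, K⁆, P⁆ with hW
  have hWK : W ≤ K := (commutator_le_left _ _).trans (commutator_le_right P K)
  have h1 := h.map (QuotientGroup.mk' W) (QuotientGroup.mk'_surjective W)
  obtain ⟨n, hn⟩ := IsPGroup.iff_card.1 (hP.map (QuotientGroup.mk' W))
  have h2 := h1.step (by rw [hn]; exact (hp.out.odd_of_ne_two hp2).pow) ⟨x₀, hx₀, rfl⟩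
    (by
      rintro ⟨k, hk, e⟩
      have := hWK (QuotientGroup.eq.1 e)
      exact hx₀K ((mul_mem_cancel_left (inv_mem hk)).1 this))
    (by rw [← map_commutator, ← map_commutator, Subgroup.map_eq_bot_iff, QuotientGroup.ker_mk'])
  rw [← map_commutator, Subgroup.map_eq_bot_iff, QuotientGroup.ker_mk'] at h2
  have := hP.isNilpotent
  exact Core.eq_bot_of_le_commutator_of_isNilpotent (commutator_le_left P K) h2

theorem Cam.pow_eq_one [Finite Y] (h : Cam P K) {p : ℕ} [hp : Fact p.Prime] (hp2 : p ≠ 2)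
    (hP : IsPGroup p P) {x : Y} (hx : x ∈ P) (hxK : x ∉ K) (hxp : x ^ p ∈ K) : x ^ p = 1 := by
  have h1 := h.comm hp2 hP hx hxK
  have z1 : ∀ a ∈ P, ∀ k ∈ K, a * k = k * a := fun a ha k hk => by
    have : ⁅a, k⁆ ∈ ⁅P, K⁆ := commutator_mem_commutator ha hk
    rwa [h1, mem_bot, commutatorElement_eq_one_iff_mul_comm] at this
  obtain ⟨s, hs, hs'⟩ := h.inv x hx hxK
  obtain ⟨y, hy, e⟩ := h.cam x hx hxK _ hxp
  have h2 := h.act (fun a ha => z1 a (h.le ha)) hx hy hs hs'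
  rw [e, cm_eq_one (z1 _ (inv_mem hx) _ (hs' y hy)),
    cm_eq_one (z1 _ (inv_mem (mul_mem hy hx)) _ hxp), one_mul, one_mul, ← conj_pow, hs,
    inv_pow, inv_eq_iff_mul_eq_one, ← sq] at h2
  obtain ⟨n, hn⟩ := hP ⟨x ^ p, pow_mem hx p⟩
  have h3 : (x ^ p) ^ p ^ n = 1 := congrArg Subtype.val hn
  have h4 := Nat.dvd_gcd (orderOf_dvd_of_pow_eq_one h2) (orderOf_dvd_of_pow_eq_one h3)
  rw [(((Nat.coprime_primes Nat.prime_two hp.out).2 hp2.symm).pow_right n : Nat.gcd _ _ = 1),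
    Nat.dvd_one, orderOf_eq_one_iff] at h4
  exact h4

end CfsgLib.CamOdd
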